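import Cfsg.Agent.H941.GU.Tow
import Cfsg.Agent.H941.GLn.GB5

/-!
# S4537: families are blocks for a tower, `p ∣ Q - 1` (GB5 (D3))

* `sameBlock_tow` : a tower `Tow θ Q M N p G` with the `p²` version of (R4);
* `sameBlock_gu` : the groups `GU n F q`; `hone_su` : the hypothesis `hone` of `su_asm` and `exc_tower` (`p = 2`).
-/

set_option autoImplicit false
set_option linter.unusedSectionVars false

open Cfsg
open scoped ComplexConjugate MatrixGroups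

namespace Cfsg.Agent.H76.GU

open Cfsg.Agent.H577.GLB.Std Cfsg.Agent.H614 Cfsg.Agent.H112.GLB Cfsg.Agent.H608.BlockRank
open Cfsg.Agent.Blocks.Basic Cfsg.Agent.Blocks.Local Cfsg.Agent.H615.GU Cfsg.Agent.H623.GU Cfsg.Agent.H941.GLn.FamOne

universe u v

section tower

variable {K : Type v} [Field K] {θ : K →*₀ ℂ} {Q : ℤ} {M N p : ℕ} [NeZero M] {G : ℕ → Type u} [∀ n, Group (G n)]
  [∀ n, Finite (G n)] {𝔐 : Ideal AlgInt}

theorem dvd_M (hd : Q - 1 ∣ (M : ℤ)) (hQp : (Q : ZMod p) = 1) : p ∣ M := by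
  have h2 : (p : ℤ) ∣ Q - 1 := by
    rw [← ZMod.intCast_zmod_eq_zero_iff_dvd]
    push_cast
    rw [hQp, sub_self]
  exact Int.natCast_dvd_natCast.1 (h2.trans hd)

/-- **GB5 (D3)** for a tower -/
theorem sameBlock_tow (t : Tow θ Q M N p G) (hd : 0 < N → Q - 1 ∣ (M : ℤ)) (h𝔐 : IsPModular p 𝔐)
    (hQp : (Q : ZMod p) = 1) {n m : ℕ} (hn : n ≤ N) (hm : n ≤ m)
    (htau1 : ∀ x ∈ Hom Q M n, ∀ g : G n,
      omT θ M (t.T n hn) (tau1 Q M p x) g = (if p ^ 2 ∣ orderOf g then 0 else 1) * omT θ M (t.T n hn) x g)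
    {B : Set (IrrCharacter (G n))} (hB : IsPBlock 𝔐 B) {χ : IrrCharacter (G n)} (hχ : χ ∈ B)
    {l : LabZ Q M m n} (hl : (t.R n hn).IsLb χ l) (ψ : IrrCharacter (G n)) (l' : LabZ Q M m n)
    (hl' : (t.R n hn).IsLb ψ l') (hf : SameFam Q M p l.t l'.t) : ψ ∈ B := by
  rcases Nat.eq_zero_or_pos n with rfl | hn0
  · have key : ∀ t : LabZ Q M m 0, t.t = fun _ (i : Fin m) => (i : ℕ) := by
      intro t
      funext c
      refine H505.S4536.DC.eq_id_of_bsz (t.mono c) ?_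
      exact (Finset.sum_eq_zero_iff.1 t.sum) c (Finset.mem_univ c)
    have h1 : l = l' := LabZ.ext (by rw [key l, key l'])
    subst h1
    rwa [((t.bij 0 m hn hm).2 l).unique hl' hl]
  · exact H941.GLn.GB5.Rz.sameBlock_of_fam (t.R n hn) htau1 h𝔐 hQp (dvd_M (hd (hn0.trans_le hn)) hQp) hm
      (t.bij n m hn hm) hB hχ hl hl' hf

end tower

section gu

variable {F : Type u} [Field F] [Fintype F] {K : Type v} [Field K] [Algebra F K] {θ : K →*₀ ℂ} {q N M p : ℕ}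
  [NeZero M] {𝔐 : Ideal AlgInt}

/-- **GB5 (D3)** for the groups `GU n F q` -/
theorem sameBlock_gu (ctx : CtxQ θ (-(q : ℤ)) M N) {M' : ℕ} (C : H614.GLn.Ctx F θ N M') (hpF : (p : F) ≠ 0)
    (t : Tow θ (-(q : ℤ)) M N p (fun n => Cfsg.GU n F q)) (ht : ∀ n (hn : n ≤ N), IsTypU q n (t.T n hn))
    (h𝔐 : IsPModular p 𝔐) (hQp : ((-(q : ℤ) : ℤ) : ZMod p) = 1) {n m : ℕ} (hn : n ≤ N) (hm : n ≤ m)
    {B : Set (IrrCharacter (Cfsg.GU n F q))} (hB : IsPBlock 𝔐 B) {χ : IrrCharacter (Cfsg.GU n F q)} (hχ : χ ∈ B)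
    {l : LabZ (-(q : ℤ)) M m n} (hl : (t.R n hn).IsLb χ l) (ψ : IrrCharacter (Cfsg.GU n F q))
    (l' : LabZ (-(q : ℤ)) M m n) (hl' : (t.R n hn).IsLb ψ l') (hf : SameFam (-(q : ℤ)) M p l.t l'.t) : ψ ∈ B := by
  refine sameBlock_tow t (fun hN => ?_) h𝔐 hQp hn hm ?_ hB hχ hl ψ l' hl' hf
  · have h1 := ctx.dvd 1 one_pos hN
    rwa [pow_one] at h1
  · intro x hx g
    exact H941.GU.tau1_U ctx C h𝔐.1 hpF hn (ht n hn) x hx g

/-- `p = 2` : the field has odd characteristic -/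
theorem cast_q_two (hF : Fintype.card F = q ^ 2) (h2 : ((2 : ℕ) : F) ≠ 0) : ((-(q : ℤ) : ℤ) : ZMod 2) = 1 := by
  have hc : ringChar F ≠ 2 := by
    intro h
    apply h2
    have := ringChar.Nat.cast_ringChar (R := F)
    rwa [h] at this
  have h1 : Fintype.card F % 2 = 1 := FiniteField.odd_card_of_char_ne_two hc
  rw [hF] at h1
  have h3 : q % 2 = 1 := by
    rcases Nat.mod_two_eq_zero_or_one q with h | h
    · rw [Nat.pow_mod, h] at h1
      exact absurd h1 (by norm_num)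
    · exact h
  have h4 : ((q : ℕ) : ZMod 2) = 1 := by
    have h5 : ((q : ℕ) : ZMod 2) = ((q % 2 : ℕ) : ZMod 2) := by rw [ZMod.natCast_mod]
    rw [h5, h3, Nat.cast_one]
  push_cast
  rw [h4]
  decide

/-- the hypothesis `hone` of `su_asm` (and of `exc_tower`, with `m = N`) -/
theorem hone_su (ctx : CtxQ θ (-(q : ℤ)) M N) {M' : ℕ} (C : H614.GLn.Ctx F θ N M') (hF : Fintype.card F = q ^ 2)
    (hpF : p ≠ ringChar F) (t : Tow θ (-(q : ℤ)) M N p (fun n => Cfsg.GU n F q))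
    (ht : ∀ n (hn : n ≤ N), IsTypU q n (t.T n hn)) (h𝔐 : IsPModular p 𝔐) :
    p = 2 → ∀ {n : ℕ} (hn : n ≤ N), 0 < n → ∀ {B : Set (IrrCharacter (Cfsg.GU n F q))}, IsPBlock 𝔐 B →
      ∀ {χ : IrrCharacter (Cfsg.GU n F q)}, χ ∈ B → ∀ {l : LabZ (-(q : ℤ)) M N n}, (t.R n hn).IsLb χ l →
      ∀ (ψ : IrrCharacter (Cfsg.GU n F q)) (l' : LabZ (-(q : ℤ)) M N n), (t.R n hn).IsLb ψ l' →
      SameFam (-(q : ℤ)) M p l.t l'.t → ψ ∈ B := by
  rintro rfl n hn - B hB χ hχ l hl ψ l' hl' hf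
  have h2 : ((2 : ℕ) : F) ≠ 0 := by
    intro h
    have h3 : ringChar F ∣ 2 := (ringChar.spec F 2).1 h
    rcases (Nat.dvd_prime Nat.prime_two).1 h3 with h4 | h4
    · have h5 := ringChar.Nat.cast_ringChar (R := F)
      rw [h4, Nat.cast_one] at h5
      exact one_ne_zero h5
    · exact hpF h4.symm
  exact sameBlock_gu ctx C h2 t ht h𝔐 (cast_q_two hF h2) hn hn hB hχ hl ψ l' hl' hf

end gu

end Cfsg.Agent.H76.GU
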